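import Cfsg.Agent.H873.RG.Defs
import Cfsg.Agent.H480.Ore.FiFrame

/-!
# S3509, row of the Baby Monster, piece K3A: no member of order three with centralizer `(3 × Fi22).2` (helper604)

`nsa_fi22` : `Fi22` is nonabelian simple and not alternating.
`fix_or` : for a commuting cover with the member `x i` of order three and a `FiFrame (x i)`: every point is fixed by `j(Fi22)`
or by `x i`.
`not_threeA` : contradiction, given the base rule.
-/

set_option autoImplicit false

namespace Cfsg.Agent.H604.RB.ThreeA

open Cfsg Cfsg.Agent.H106.RC Cfsg.Agent.H873.RG Cfsg.Agent.H480.Ore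
open MulAction (stabilizer)

theorem card_fi22 : Nat.card Spor.Fi22 = 64561751654400 := Cfsg.Agent.Fischer.Fi22Order.card_fi22

theorem nsa_fi22 : NSA Spor.Fi22 := by
  have hs : IsSimpleGroup Spor.Fi22 := Cfsg.Agent.Fischer.Fi22Order.isSimple
  refine ⟨hs, ?_, ?_⟩
  · intro hcm
    have h1 : Nat.Prime (Nat.card Spor.Fi22) := by
      let _ : CommGroup Spor.Fi22 := { (inferInstance : Group Spor.Fi22) with mul_comm := hcm.is_comm.comm }
      exact IsSimpleGroup.prime_card
    rw [card_fi22] at h1
    revert h1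
    norm_num
  · rintro ⟨n, hn, ⟨e⟩⟩
    have h1 := Nat.card_congr e.toEquiv
    have : Nontrivial (Fin n) := Fin.nontrivial_iff_two_le.2 (by omega)
    rw [card_fi22, nat_card_alternatingGroup, Nat.card_fin] at h1
    have h2 : Nat.factorial n = 2 * 64561751654400 := by
      have h3 : 2 ∣ Nat.factorial n := Nat.dvd_factorial (by norm_num) (by omega)
      omega
    rcases Nat.lt_or_ge n 17 with h3 | h3
    · have h4 := Nat.factorial_le (show n ≤ 16 by omega)
      rw [h2] at h4
      revert h4
      decide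
    · have h4 := Nat.factorial_le h3
      rw [h2] at h4
      revert h4
      decide

section

variable {L : Type} [Group L] [Finite L] (hIH : IHx (Nat.card L)) {Ω : Type} [MulAction L Ω] {ι : Type} [Finite ι]
  {x : ι → L} {r : ι → ℕ} (hx : PF x r) (hc : Cov Ω x)

include hIH hx hc

/-- every point is fixed by `j(Fi22)` or by `x i` -/
theorem fix_or {i : ι} (hi : r i = 3) (D : FiFrame (x i)) (ω : Ω) : D.j.range ≤ stabilizer L ω ∨ x i • ω = ω := by
  have ho : orderOf (x i) = 3 := by
    have h3 : Fact (Nat.Prime 3) := ⟨Nat.prime_three⟩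
    exact orderOf_eq_prime (by rw [← hi]; exact hx.pow i) (hx.ne i)
  have hfin : Finite Spor.Fi22 := Finite.of_injective D.j D.inj
  have hker : (MonoidHom.ofInjective D.inj).symm.toMonoidHom.ker ≤ Subgroup.center ↥D.j.range := by
    rw [(MonoidHom.ker_eq_bot_iff _).2 (MonoidHom.ofInjective D.inj).symm.injective]
    exact bot_le
  have hne : D.j.range ≠ ⊤ := by
    intro h
    have h1 : x i ∈ D.j.range := by rw [h]; trivial
    obtain ⟨f, hf⟩ := h1
    have h2 := D.eq_one_of_pow (k := 1) (f := f) (by rw [zpow_one, hf])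
    apply hx.ne i
    rw [← hf, h2, map_one]
  have hcom : ∀ k, x k * x i = x i * x k := fun k => hx.comm k i
  have hnorm : ∀ k, x k ∈ Subgroup.normalizer (D.j.range : Set L) := by
    have key : ∀ u : L, u * x i = x i * u → ∀ m ∈ D.j.range, u * m * u⁻¹ ∈ D.j.range := by
      intro u hu m hm
      obtain ⟨f, rfl⟩ := hm
      by_cases huS : u ∈ D.S
      · obtain ⟨k, g, rfl⟩ := huS
        refine ⟨g * f * g⁻¹, ?_⟩
        have h1 : Commute (x i ^ k) (D.j (g * f * g⁻¹)) :=
          ((show Commute (D.j (g * f * g⁻¹)) (x i) from D.comm _).zpow_right k).symm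
        have h2 : x i ^ k * D.j g * D.j f * (x i ^ k * D.j g)⁻¹ = x i ^ k * D.j (g * f * g⁻¹) * (x i ^ k)⁻¹ := by
          rw [map_mul, map_mul, map_inv]
          group
        rw [h2, h1.eq, mul_inv_cancel_right]
      · obtain ⟨g, hg⟩ := D.conj_range hu huS f
        exact ⟨g, hg⟩
    intro k
    rw [Subgroup.mem_normalizer_iff]
    intro m
    constructor
    · exact fun hm => key _ (hcom k) m hm
    · intro hm
      have h1 : (x k)⁻¹ * x i = x i * (x k)⁻¹ := (show Commute (x k) (x i) from hcom k).inv_left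
      have h2 := key _ h1 _ hm
      have h3 : (x k)⁻¹ * (x k * m * (x k)⁻¹) * (x k)⁻¹⁻¹ = m := by group
      rwa [h3] at h2
  have key := mrule_IHx hIH (N := (⊤ : Subgroup L)) Subgroup.topEquiv (M := D.j.range) le_top hne D.range_eq
    (MonoidHom.ofInjective D.inj).symm.toMonoidHom (MonoidHom.ofInjective D.inj).symm.surjective hker nsa_fi22 hx hc hnorm ω
  rcases key with h | ⟨k, h1, h2⟩
  · exact Or.inl h
  · right
    obtain ⟨n, f, hnf⟩ := D.out (x k) (hcom k) (fun f => h1 _ ⟨f, rfl⟩)
    have hf : f = 1 := by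
      apply Fi22Out.center_triv
      intro g
      apply D.inj
      have h3 := h1 (D.j g) ⟨g, rfl⟩
      rw [hnf] at h3
      have h4 : Commute (D.j g) (x i ^ n) := (show Commute (D.j g) (x i) from D.comm g).zpow_right n
      rw [map_mul, map_mul]
      have h5 : x i ^ n * (D.j f * D.j g) = x i ^ n * (D.j g * D.j f) := by
        calc x i ^ n * (D.j f * D.j g) = x i ^ n * D.j f * D.j g := by group
          _ = D.j g * (x i ^ n * D.j f) := h3
          _ = (D.j g * x i ^ n) * D.j f := by group
          _ = (x i ^ n * D.j g) * D.j f := by rw [h4.eq]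
          _ = _ := by group
      exact mul_left_cancel h5
    rw [hf, map_one, mul_one] at hnf
    have h3 : x k ^ 3 = 1 := by
      rw [hnf, ← zpow_natCast, ← zpow_mul, mul_comm, zpow_mul, zpow_natCast, ← ho, pow_orderOf_eq_one, one_zpow]
    have h4 : orderOf (x k) = r k := by
      have : Fact (r k).Prime := ⟨hx.prime k⟩
      exact orderOf_eq_prime (hx.pow k) (hx.ne k)
    have h5 : r k ∣ 3 := by rw [← h4]; exact orderOf_dvd_of_pow_eq_one h3
    have h6 : r k = 3 := (Nat.prime_dvd_prime_iff_eq (hx.prime k) Nat.prime_three).1 h5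
    have h7 : k = i := hx.inj (h6.trans hi.symm)
    rw [← h7]
    exact h2

/-- **K3A**, given the base rule `base_two` (for this action). -/
theorem not_threeA (hbase : ∀ a b : L, (∀ ω : Ω, a • ω = ω ∨ b • ω = ω) → a ≠ 1 → (orderOf b).Prime → 11 ≤ orderOf b → False)
    {i : ι} (hi : r i = 3) (D : FiFrame (x i)) : False := by
  have hfin : Finite Spor.Fi22 := Finite.of_injective D.j D.inj
  have h13 : Fact (Nat.Prime 13) := ⟨by norm_num⟩
  obtain ⟨y, hy⟩ := exists_prime_orderOf_dvd_card' (G := Spor.Fi22) 13 (by rw [card_fi22]; norm_num)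
  have ho : orderOf (D.j y) = 13 := by rw [orderOf_injective D.j D.inj, hy]
  refine hbase (x i) (D.j y) ?_ (hx.ne i) (by rw [ho]; norm_num) (by rw [ho]; norm_num)
  intro ω
  rcases fix_or hIH hx hc hi D ω with h | h
  · right
    exact h ⟨y, rfl⟩
  · exact Or.inl h

end

end Cfsg.Agent.H604.RB.ThreeA
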